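import Mathlib
import Cfsg.Agent.Lib.CharTheory.Decomp
import Cfsg.Agent.Lib.CharTheory.Orthogonality
import Cfsg.Agent.Lib.Frobenius.Induce

/-!
# Values of irreducible characters on an abelian normal subgroup
-/

set_option autoImplicit false

open Cfsg Polynomial
open scoped ComplexConjugate

namespace CfsgLib.Jordan

universe u

/-- An irreducible character of an abelian group is a homomorphism. -/
theorem exists_hom_of_comm {A : Type*} [Group A] [Finite A] (hA : ∀ a b : A, a * b = b * a)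
    {ν : A → ℂ} (hν : IsIrrCharacter A ν) : ∃ l : A →* ℂ, ν = l := by
  obtain ⟨n, ρ, hρ, rfl⟩ := hν
  haveI : IsMulCommutative A := ⟨⟨hA⟩⟩
  have hn : n = 1 := by simpa using Representation.IsIrreducible.finrank_eq_one_of_isMulCommutative ρ
  subst hn
  refine ⟨{ toFun := ρ.character, map_one' := by simp, map_mul' := fun a b => ?_ }, rfl⟩
  simp only [Representation.character, map_mul,
    LinearMap.trace_eq_matrix_trace ℂ (Pi.basisFun ℂ (Fin 1)), LinearMap.toMatrix_mul,
    Matrix.trace_fin_one, Matrix.mul_apply, Finset.univ_unique, Finset.sum_singleton]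
  rfl

/-- The values of an irreducible character on an abelian normal subgroup `V` are proportional to
the sum of the conjugates of one linear character of `V`. -/
theorem exists_hom_mul_eq_sum {G : Type u} [Group G] [Fintype G] (V : Subgroup G) [V.Normal]
    (hab : ∀ a ∈ V, ∀ b ∈ V, a * b = b * a) {χ : G → ℂ} (hχ : IsIrrCharacter G χ) :
    ∃ μ : V →* ℂ, ∀ u : V, (Nat.card G : ℂ) * χ u =
      χ 1 * ∑ x : G, μ ⟨x * u * x⁻¹, Subgroup.Normal.conj_mem ‹_› _ u.2 x⟩ := by
  classical
  haveI : Fintype V := Fintype.ofFinite _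
  haveI := Fintype.ofFinite (IrrCharacter V)
  haveI := Fintype.ofFinite (IrrCharacter G)
  have hχc : IsCharacter G χ := CfsgLib.CharTheory.IsIrrCharacter.isCharacter hχ
  have hcomm : ∀ a b : V, a * b = b * a := fun a b => Subtype.ext (hab a a.2 b b.2)
  have hres : IsCharacter V (fun u : V => χ u) := CfsgLib.Coherence.isCharacter_comp hχc V.subtype
  obtain ⟨m, hm⟩ := CfsgLib.CharTheory.IsCharacter.exists_sum hres
  have hone : ∀ ν : IrrCharacter V, (ν : V → ℂ) 1 = 1 := by
    intro ν
    obtain ⟨l, hl⟩ := exists_hom_of_comm hcomm ν.2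
    rw [hl, map_one]
  have hsum1 : χ 1 = ∑ ν, (m ν : ℂ) := by
    simpa [hone] using congrFun hm 1
  obtain ⟨μ₀, hμ₀⟩ : ∃ μ, m μ ≠ 0 := by
    by_contra! h
    exact CfsgLib.CharTheory.apply_one_ne_zero_of_isIrr hχ (by simp [hsum1, h])
  obtain ⟨μ, hμ⟩ := exists_hom_of_comm hcomm μ₀.2
  let S : (V →* ℂ) → V → ℂ := fun l u =>
    ∑ x : G, l ⟨x * u * x⁻¹, Subgroup.Normal.conj_mem ‹_› _ u.2 x⟩
  have horbit : ∀ ν : IrrCharacter V, m ν ≠ 0 → ∀ u : V,
      (∑ x : G, (ν : V → ℂ) ⟨x * u * x⁻¹, Subgroup.Normal.conj_mem ‹_› _ u.2 x⟩) = S μ u := by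
    intro ν hν
    obtain ⟨c, hc⟩ := CfsgLib.CharTheory.IsCharacter.exists_sum
      (CfsgLib.Frobenius.isCharacter_indFun V (μ₀ : V → ℂ)
        (CfsgLib.CharTheory.IsIrrCharacter.isCharacter μ₀.2))
    have hc0 : c ⟨χ, hχ⟩ ≠ 0 := by
      have h := CfsgLib.CharTheory.classInner_sum_irr (fun φ => (c φ : ℂ)) ⟨χ, hχ⟩
      rw [← hc, CfsgLib.Frobenius.classInner_indFun V _ _
        (CfsgLib.CharTheory.IsIrrCharacter.isClassFunction hχ), CfsgLib.CharTheory.classInner_conj_symm] at h
      rw [hm, CfsgLib.CharTheory.classInner_sum_irr, map_natCast, Nat.cast_inj] at h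
      exact h ▸ hμ₀
    have hne : classInner (fun u : V => indFun V (μ₀ : V → ℂ) u) (ν : V → ℂ) ≠ 0 := by
      have hφ : ∀ φ : IrrCharacter G, ∃ k : ℕ,
          classInner (fun u : V => (φ : G → ℂ) u) (ν : V → ℂ) = k := fun φ =>
        CfsgLib.CharTheory.IsCharacter.exists_classInner_eq_nat
          (CfsgLib.Coherence.isCharacter_comp (CfsgLib.CharTheory.IsIrrCharacter.isCharacter φ.2)
            V.subtype) ν
      choose k hk using hφ
      have hkχ : k ⟨χ, hχ⟩ = m ν := by
        have h := hk ⟨χ, hχ⟩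
        simp only at h
        rw [hm, CfsgLib.CharTheory.classInner_sum_irr, Nat.cast_inj] at h
        exact h.symm
      have h : classInner (fun u : V => indFun V (μ₀ : V → ℂ) u) (ν : V → ℂ)
          = ((∑ φ, c φ * k φ : ℕ) : ℂ) := by
        have e : (fun u : V => indFun V (μ₀ : V → ℂ) u)
            = ∑ φ : IrrCharacter G, (c φ : ℂ) • (fun u : V => (φ : G → ℂ) u) := by
          funext u
          rw [hc]
          simp [Finset.sum_apply]
        rw [e, CfsgLib.CharTheory.classInner_sum_left]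
        push_cast
        exact Finset.sum_congr rfl fun φ _ => by rw [CfsgLib.CharTheory.classInner_smul_left, hk]
      rw [h, Nat.cast_ne_zero]
      refine (Finset.sum_pos' (fun φ _ => Nat.zero_le _) ⟨⟨χ, hχ⟩, Finset.mem_univ _, ?_⟩).ne'
      rw [hkχ]
      positivity
    obtain ⟨x, hx⟩ : ∃ x : G, ∀ u : V, (ν : V → ℂ) u =
        μ ⟨x⁻¹ * u * x, by simpa using Subgroup.Normal.conj_mem ‹_› (u : G) u.2 x⁻¹⟩ := by
      by_contra! hcon
      apply hne
      let μx : G → V → ℂ := fun x u =>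
        μ ⟨x⁻¹ * u * x, by simpa using Subgroup.Normal.conj_mem ‹_› (u : G) u.2 x⁻¹⟩
      have hirr : ∀ x, IsIrrCharacter V (μx x) := by
        intro x
        let f : V →* ℂ :=
          { toFun := μx x
            map_one' := by simp only [μx]; rw [← map_one μ]; congr 1; ext; simp
            map_mul' := fun a b => by
              simp only [μx]; rw [← map_mul]; congr 1; ext; simp [mul_assoc] }
        haveI := Fintype.ofFinite V
        have hf : IsCharacter V f := ⟨1,
          { toFun := fun a => f a • LinearMap.id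
            map_one' := by rw [map_one, one_smul]; rfl
            map_mul' := fun a b => LinearMap.ext fun v => by simp [mul_smul, smul_comm (f a) (f b)] },
          funext fun a => by simp [Representation.character, LinearMap.trace_id]⟩
        refine (CfsgLib.CharTheory.isIrrCharacter_iff_norm_one hf).mpr ?_
        show classInner (f : V → ℂ) f = 1
        rw [CfsgLib.CharTheory.classInner_eq_sum_inv hf]
        rw [Finset.sum_congr rfl fun a _ => (show f a * f a⁻¹ = 1 by rw [← map_mul, mul_inv_cancel, map_one])]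
        simp [Nat.card_eq_fintype_card]
      have hdec : (fun u : V => indFun V (μ₀ : V → ℂ) u)
          = (Nat.card V : ℂ)⁻¹ • ∑ x : G, μx x := by
        funext u
        simp only [indFun, Pi.smul_apply, Finset.sum_apply, smul_eq_mul]
        congr 1
        refine Finset.sum_congr rfl fun x _ => ?_
        rw [CfsgLib.Frobenius.extendByZero_of_mem V (μ₀ : V → ℂ)
          (by simpa using Subgroup.Normal.conj_mem ‹V.Normal› (u : G) u.2 x⁻¹), hμ]
      rw [hdec, CfsgLib.CharTheory.classInner_smul_left, CfsgLib.CharTheory.classInner_sum_left,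
        Finset.sum_eq_zero fun x _ => ?_, mul_zero]
      refine CfsgLib.CharTheory.classInner_eq_zero_of_ne (hirr x) ν.2 fun h => ?_
      obtain ⟨u, hu⟩ := hcon x
      exact hu (congrFun h u).symm
    intro u
    simp only [hx, S]
    exact Fintype.sum_equiv (Equiv.mulLeft x⁻¹) _ _ fun y => by
      congr 1; ext; simp [mul_assoc]
  refine ⟨μ, fun u => ?_⟩
  have h1 : (Nat.card G : ℂ) * χ u =
      ∑ x : G, χ (((⟨x * u * x⁻¹, Subgroup.Normal.conj_mem ‹_› _ u.2 x⟩ : V) : G)) := by
    simp only [CfsgLib.CharTheory.IsIrrCharacter.isClassFunction hχ (u : G), Finset.sum_const,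
      Finset.card_univ, nsmul_eq_mul, Nat.card_eq_fintype_card]
  rw [h1, hsum1, Finset.sum_mul]
  have hm' : ∀ y : V, χ y = ∑ ψ, (m ψ : ℂ) * (ψ : V → ℂ) y := fun y => by
    simpa [Finset.sum_apply] using congrFun hm y
  rw [Finset.sum_congr rfl fun x _ => hm' _]
  rw [Finset.sum_comm]
  refine Finset.sum_congr rfl fun ν _ => ?_
  rw [← Finset.mul_sum]
  rcases eq_or_ne (m ν) 0 with h | h
  · simp [h]
  · rw [horbit ν h u]

/-- A sum of `p`-power roots of unity over an index set of size prime to `p` is not zero. -/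
theorem sum_prime_pow_roots_ne_zero {ι : Type*} [Fintype ι] {p k : ℕ} [Fact p.Prime]
    (hι : ¬ p ∣ Fintype.card ι) (z : ι → ℂ) (hz : ∀ i, z i ^ p ^ k = 1) : ∑ i, z i ≠ 0 := by
  classical
  intro h
  rcases k with _ | k
  · simp only [pow_zero, pow_one] at hz
    simp only [hz, Finset.sum_const, Finset.card_univ, nsmul_eq_mul, mul_one, Nat.cast_eq_zero] at h
    exact hι (h ▸ dvd_zero p)
  have hpos : 0 < p ^ (k + 1) := pow_pos (Fact.out (p := p.Prime)).pos _
  haveI : NeZero (p ^ (k + 1)) := ⟨hpos.ne'⟩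
  have hζ := Complex.isPrimitiveRoot_exp (p ^ (k + 1)) hpos.ne'
  have hex : ∀ i, ∃ a : ℕ, Complex.exp (2 * Real.pi * Complex.I / (p ^ (k + 1) : ℕ)) ^ a = z i :=
    fun i => (hζ.eq_pow_of_pow_eq_one (hz i)).imp fun a ha => ha.2
  choose a ha using hex
  let P : ℤ[X] := ∑ i, X ^ a i
  have hP : aeval (Complex.exp (2 * Real.pi * Complex.I / (p ^ (k + 1) : ℕ))) P = 0 := by
    simp only [P, map_sum, map_pow, aeval_X]
    rw [Finset.sum_congr rfl fun i _ => ha i, h]
  have hdvd : cyclotomic (p ^ (k + 1)) ℤ ∣ P := by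
    rw [cyclotomic_eq_minpoly hζ hpos]
    exact minpoly.isIntegrallyClosed_dvd (hζ.isIntegral hpos) hP
  have h1 := eval_dvd (x := (1 : ℤ)) hdvd
  rw [eval_one_cyclotomic_prime_pow, show P.eval 1 = (Fintype.card ι : ℤ) by simp [P, eval_finsetSum]] at h1
  exact hι (Int.natCast_dvd_natCast.mp h1)

/-- An irreducible character does not vanish on an abelian normal `p`-subgroup of index prime to
`p`. -/
theorem apply_ne_zero_of_abelian_sylow {G : Type u} [Group G] [Finite G] {p : ℕ} [Fact p.Prime]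
    (V : Subgroup G) [V.Normal] (hV : IsPGroup p V) (hidx : ¬ p ∣ V.index)
    (hab : ∀ a ∈ V, ∀ b ∈ V, a * b = b * a) {χ : G → ℂ} (hχ : IsIrrCharacter G χ)
    {v : G} (hv : v ∈ V) : χ v ≠ 0 := by
  classical
  haveI := Fintype.ofFinite G
  haveI : Fintype (G ⧸ V) := Fintype.ofFinite _
  obtain ⟨μ, hμ⟩ := exists_hom_mul_eq_sum V hab hχ
  obtain ⟨k, hk⟩ := hV.exists_card_eq
  let f : G → ℂ := fun x => μ ⟨x * v * x⁻¹, Subgroup.Normal.conj_mem ‹_› _ hv x⟩
  have hfib : ∀ x : G, f x = f (x : G ⧸ V).out := by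
    intro x
    obtain ⟨w, hw⟩ := QuotientGroup.mk_out_eq_mul V x
    simp only [f]
    congr 1
    ext
    simp only [hw]
    have e : (w : G) * v * (w : G)⁻¹ = v := by rw [hab _ w.2 _ hv, mul_inv_cancel_right]
    calc x * v * x⁻¹ = x * ((w : G) * v * (w : G)⁻¹) * x⁻¹ := by rw [e]
      _ = _ := by group
  have hsum : ∑ x : G, f x = (Nat.card V : ℂ) * ∑ q : G ⧸ V, f q.out := by
    rw [← Finset.sum_fiberwise Finset.univ (fun x : G => (x : G ⧸ V)) f, Finset.mul_sum]
    refine Finset.sum_congr rfl fun q _ => ?_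
    have hc : (Finset.univ.filter fun x : G => (x : G ⧸ V) = q).card = Nat.card V := by
      rw [← Fintype.card_subtype, ← Nat.card_eq_fintype_card]
      show Nat.card ((fun x : G => (x : G ⧸ V)) ⁻¹' {q}) = _
      rw [Nat.card_congr (QuotientGroup.preimageMkEquivSubgroupProdSet V {q}), Nat.card_prod]
      simp
    rw [← hc, ← nsmul_eq_mul, ← Finset.sum_const]
    exact Finset.sum_congr rfl fun x hx => by rw [hfib x, (Finset.mem_filter.mp hx).2]
  intro h0
  have h := hμ ⟨v, hv⟩
  simp only at h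
  rw [h0, mul_zero, eq_comm, mul_eq_zero] at h
  have h2 := h.resolve_left (CfsgLib.CharTheory.apply_one_ne_zero_of_isIrr hχ)
  change ∑ x : G, f x = 0 at h2
  rw [hsum, mul_eq_zero] at h2
  refine sum_prime_pow_roots_ne_zero (p := p) (k := k) ?_ _ (fun q => ?_)
    (h2.resolve_left (by exact_mod_cast Nat.card_pos.ne'))
  · rwa [← Nat.card_eq_fintype_card, ← Subgroup.index_eq_card]
  · simp only [f]
    rw [← map_pow, ← hk, pow_card_eq_one', map_one]

end CfsgLib.Jordan
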