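import Mathlib
import Cfsg.Agent.Lib.CharTheory.Basic

/-!
# Averaging a character over the cosets of a normal subgroup
-/

set_option autoImplicit false

open Module

namespace CfsgLib.Jordan

universe u

/-- The average of a character over the cosets of a normal subgroup `N` is a character (of the
representation on the `N`-invariants). -/
theorem isCharacter_cosetAverage {G : Type u} [Group G] (N : Subgroup G) [N.Normal] [Fintype N]
    {V : Type*} [AddCommGroup V] [Module ℂ V] [FiniteDimensional ℂ V] (τ : Representation ℂ G V) :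
    Cfsg.IsCharacter G (fun g => (Nat.card N : ℂ)⁻¹ * ∑ n : N, τ.character ((n : G) * g)) := by
  classical
  let W : Submodule ℂ V :=
    { carrier := {v | ∀ n : N, τ (n : G) v = v}
      add_mem' := fun ha hb n => by rw [map_add, ha n, hb n]
      zero_mem' := fun n => map_zero _
      smul_mem' := fun c v hv n => by rw [map_smul, hv n] }
  have hW : ∀ (g : G) (v : V), v ∈ W → τ g v ∈ W := by
    intro g v hv n
    have h := hv ⟨g⁻¹ * n * g, by simpa using Subgroup.Normal.conj_mem ‹_› (n : G) n.2 g⁻¹⟩
    calc τ (n : G) (τ g v) = τ g (τ (g⁻¹ * (n : G) * g) v) := by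
          rw [← Module.End.mul_apply, ← map_mul, ← Module.End.mul_apply, ← map_mul]
          simp [mul_assoc]
      _ = τ g v := by rw [h]
  let σ : Representation ℂ G W :=
    (⟨W, fun g v hv => hW g v hv⟩ : Subrepresentation τ).toRepresentation
  let P : V →ₗ[ℂ] V := (Nat.card N : ℂ)⁻¹ • ∑ n : N, τ (n : G)
  have hPmem : ∀ v, P v ∈ W := by
    intro v m
    simp only [P, LinearMap.smul_apply, LinearMap.coe_sum, Finset.sum_apply, map_smul, map_sum]
    congr 1
    exact Fintype.sum_equiv (Equiv.mulLeft m) _ _ (fun n => by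
      rw [← Module.End.mul_apply, ← map_mul]
      rfl)
  have hPfix : ∀ v ∈ W, P v = v := by
    intro v hv
    simp only [P, LinearMap.smul_apply, LinearMap.coe_sum, Finset.sum_apply]
    rw [Finset.sum_congr rfl fun n _ => hv n, Finset.sum_const, Finset.card_univ,
      ← Nat.card_eq_fintype_card, ← Nat.cast_smul_eq_nsmul ℂ, smul_smul, inv_mul_cancel₀, one_smul]
    exact_mod_cast Nat.card_pos.ne'
  have hchar : σ.character = fun g => (Nat.card N : ℂ)⁻¹ * ∑ n : N, τ.character ((n : G) * g) := by
    funext g
    let π : V →ₗ[ℂ] W := P.codRestrict W hPmem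
    have hsig : σ g = π ∘ₗ (τ g ∘ₗ W.subtype) := by
      refine LinearMap.ext fun v => Subtype.ext ?_
      show τ g v = P (τ g v)
      rw [hPfix _ (hW g v v.2)]
    have h1 : LinearMap.trace ℂ W (σ g) = LinearMap.trace ℂ V (P * τ g) := by
      rw [hsig, LinearMap.trace_comp_comm']
      show LinearMap.trace ℂ V (τ g * P) = _
      exact LinearMap.trace_mul_comm ℂ _ _
    rw [Representation.character, h1]
    simp only [P, Representation.character, smul_mul_assoc, Finset.sum_mul, map_smul, map_sum,
      ← map_mul, smul_eq_mul]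
  rw [← hchar]
  exact CfsgLib.CharTheory.isCharacter_character σ

/-- For a character `χ` and a normal subgroup `N`, the mean of `‖χ‖ ^ 2` over each coset of `N` is
a character. -/
theorem isCharacter_cosetNormSq {G : Type u} [Group G] [Finite G] (N : Subgroup G) [N.Normal]
    [Fintype N] {χ : G → ℂ} (hχ : Cfsg.IsCharacter G χ) :
    Cfsg.IsCharacter G
      (fun g => (((Nat.card N : ℝ)⁻¹ * ∑ n : N, ‖χ ((n : G) * g)‖ ^ 2 : ℝ) : ℂ)) := by
  obtain ⟨m, ρ, rfl⟩ := hχ
  convert isCharacter_cosetAverage N (Representation.linHom ρ ρ) using 2 with g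
  push_cast
  congr 1
  refine Finset.sum_congr rfl fun n _ => ?_
  rw [Representation.char_linHom, CfsgLib.CharTheory.isCharacter_inv ⟨m, ρ, rfl⟩, Complex.conj_mul']

end CfsgLib.Jordan
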