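import Cfsg.Agent.Lib.RealChar.Indicator
import Cfsg.Agent.Lib.Correspondences.RealIrr
import Cfsg.Agent.Lib.Clifford.Basic
import Cfsg.Agent.Lib.CharTheory.Basic
import Cfsg.Agent.Lib.Frobenius.Induce

/-!
The Frobenius–Schur indicator is preserved by the Clifford correspondence over a character which
extends to its inertia group.
-/

set_option autoImplicit false
set_option linter.style.haveILetI false

open scoped ComplexConjugate
open Matrix Cfsg CfsgLib.CharTheory CfsgLib.RealChar CfsgLib.Clifford

namespace CfsgLib.Jordan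

variable {N : Type*} [Group N] {m : ℕ}

/-- The action `X ↦ σ(n) X τ(n)ᵀ`. -/
noncomputable def pairRep (σ τ : N →* Matrix (Fin m) (Fin m) ℂ) :
    Representation ℂ N (Matrix (Fin m) (Fin m) ℂ) where
  toFun n :=
    { toFun := fun X => σ n * X * (τ n)ᵀ
      map_add' := fun X Y => by rw [mul_add, add_mul]
      map_smul' := fun c X => by rw [RingHom.id_apply, Matrix.mul_smul, Matrix.smul_mul] }
  map_one' := LinearMap.ext fun X => by simp
  map_mul' a b := LinearMap.ext fun X => by simp [Matrix.mul_assoc]

theorem pairRep_apply (σ τ : N →* Matrix (Fin m) (Fin m) ℂ) (n : N) (X : Matrix (Fin m) (Fin m) ℂ) :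
    pairRep σ τ n X = σ n * X * (τ n)ᵀ := rfl

theorem single_pair_apply (A B : Matrix (Fin m) (Fin m) ℂ) (i j a b : Fin m) :
    (A * Matrix.single i j (1 : ℂ) * Bᵀ : Matrix (Fin m) (Fin m) ℂ) a b = A a i * B b j := by
  simp [Matrix.mul_apply, Matrix.single_apply, ite_and]

theorem trace_pairRep (σ τ : N →* Matrix (Fin m) (Fin m) ℂ) (n : N) :
    (pairRep σ τ).character n = (σ n).trace * (τ n).trace := by
  show LinearMap.trace ℂ _ (pairRep σ τ n) = _
  rw [LinearMap.trace_eq_matrix_trace ℂ (Matrix.stdBasis ℂ (Fin m) (Fin m))]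
  simp only [Matrix.trace, Matrix.diag, LinearMap.toMatrix_apply,]
  rw [Fintype.sum_prod_type, Finset.sum_mul_sum]
  refine Finset.sum_congr rfl fun i _ => Finset.sum_congr rfl fun j _ => ?_
  rw [← single_pair_apply]
  simp [Matrix.stdBasis, pairRep_apply, ← Matrix.single_eq_of_single_single]

/-- Schur orthogonality: without an invariant pairing the sum of products vanishes. -/
theorem sum_mul_eq_zero_of_orthogonal [Fintype N] (σ τ : N →* Matrix (Fin m) (Fin m) ℂ)
    (h : ∑ n : N, (σ n).trace * (τ n).trace = 0) : ∑ n : N, σ n * τ n = 0 := by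
  haveI : Invertible (Nat.card N : ℂ) := invertibleOfNonzero (Nat.cast_ne_zero.mpr Nat.card_pos.ne')
  have hfin : Module.finrank ℂ (pairRep σ τ).invariants = 0 := by
    have h1 := Representation.card_inv_mul_sum_char_eq_finrank (pairRep σ τ)
    simp only [trace_pairRep, h, mul_zero] at h1
    exact_mod_cast h1.symm
  have h0 : ∀ X, ∑ n : N, pairRep σ τ n X = 0 := by
    intro X
    have hmem : ∑ n : N, pairRep σ τ n X ∈ (pairRep σ τ).invariants := by
      rw [Representation.mem_invariants]
      intro x
      rw [map_sum]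
      exact Fintype.sum_equiv (Equiv.mulLeft x) _ _ fun g => by simp [map_mul]
    rw [Submodule.finrank_eq_zero.1 hfin] at hmem
    exact (Submodule.mem_bot ℂ).1 hmem
  ext i l
  rw [Matrix.sum_apply]
  simp only [Matrix.mul_apply, Matrix.zero_apply]
  rw [Finset.sum_comm]
  refine Finset.sum_eq_zero fun a _ => ?_
  have := congrFun (congrFun (h0 (Matrix.single a l (1 : ℂ))) i) a
  simp only [pairRep_apply, Matrix.sum_apply, single_pair_apply, Matrix.zero_apply] at this
  exact this

variable {G : Type*} [Group G] [Fintype G]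

open scoped Classical in
/-- The indicator of an induced character is the sum over all square roots into the subgroup. -/
theorem fsIndicator_indFun (T : Subgroup G) (ψ : T → ℂ) :
    fsIndicator (indFun T ψ) = (Nat.card T : ℂ)⁻¹ * ∑ g : G, extendByZero T ψ (g * g) := by
  have h1 : ∀ x : G, ∑ g : G, extendByZero T ψ (x⁻¹ * (g * g) * x) = ∑ g : G, extendByZero T ψ (g * g) :=
    fun x => Fintype.sum_equiv (MulAut.conj x⁻¹).toEquiv _ _ fun g => by simp [mul_assoc]
  simp only [fsIndicator, indFun, ← Finset.mul_sum]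
  rw [Finset.sum_comm, Finset.sum_congr rfl fun x _ => h1 x, Finset.sum_const, Finset.card_univ,
    ← Nat.card_eq_fintype_card, nsmul_eq_mul]
  have : (Nat.card G : ℂ) ≠ 0 := Nat.cast_ne_zero.2 Nat.card_pos.ne'
  field_simp

/-- An extension of real type of an irreducible character of a normal subgroup to its inertia group
induces to a character of real type. -/
theorem fsIndicator_indFun_inertia {N T : Subgroup G} [N.Normal] [Fintype N] [Fintype T] {θ : N → ℂ}
    (hθ : IsIrrCharacter N θ) (hT : ∀ g : G, g ∈ T ↔ conjChar N θ g = θ) (hNT : N ≤ T) {ψ : T → ℂ}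
    (hψ : IsIrrCharacter T ψ) (hext : ∀ n : N, ψ ⟨(n : G), hNT n.2⟩ = θ n)
    (hreal : fsIndicator ψ ≠ 0) : fsIndicator (indFun T ψ) = fsIndicator ψ := by
  classical
  have him := (CfsgLib.Correspondences.fsIndicator_irr_ne_zero_iff hψ).1 hreal
  set f : G → ℂ := fun g => extendByZero T ψ (g * g) with hf
  have hsplit := Finset.sum_add_sum_compl (Finset.univ.filter fun g : G => g ∈ T) f
  have hin : ∑ g ∈ Finset.univ.filter (fun g : G => g ∈ T), f g = ∑ t : T, ψ (t * t) := by
    rw [Finset.sum_subtype (p := fun g => g ∈ T) (Finset.univ.filter fun g : G => g ∈ T)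
      (fun g => by simp) f]
    refine Finset.sum_congr rfl fun t _ => ?_
    exact CfsgLib.Frobenius.extendByZero_of_mem T ψ (t * t : T).2
  obtain ⟨d, ρ, hρ, rfl⟩ := hψ
  have hzero : ∀ g : G, g ∉ T → ∑ n : N, f (g * n) = 0 := by
    intro g hg
    have hmem : ∀ n : N, (g * n) * (g * n) = (g * g) * ((g⁻¹ * n * g) * n) := fun n => by group
    have hNm : ∀ n : N, g⁻¹ * (n : G) * g * n ∈ T := fun n =>
      hNT (N.mul_mem (by simpa using Subgroup.Normal.conj_mem ‹N.Normal› (n : G) n.2 g⁻¹) n.2)
    by_cases hgg : g * g ∈ T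
    · let M := toMatRep ρ
      let τ : N →* Matrix (Fin d) (Fin d) ℂ := M.comp (Subgroup.inclusion hNT)
      let σ : N →* Matrix (Fin d) (Fin d) ℂ := τ.comp (MulAut.conjNormal g⁻¹).toMonoidHom
      have htr : ∀ n : N, (τ n).trace = θ n := fun n => (trace_toMatRep ρ _).trans (hext n)
      have horth : ∑ n : N, (σ n).trace * (τ n).trace = 0 := by
        have hne : conjChar N θ g⁻¹ ≠ θ := fun h => hg (by simpa using T.inv_mem ((hT _).2 h))
        have h0 := classInner_eq_zero_of_ne (isIrrCharacter_conjChar N hθ g⁻¹) hθ hne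
        rw [classInner, mul_eq_zero, inv_eq_zero] at h0
        rw [← h0.resolve_left (Nat.cast_ne_zero.2 Nat.card_pos.ne')]
        refine Finset.sum_congr rfl fun n _ => ?_
        rw [htr, show (σ n).trace = conjChar N θ g⁻¹ n by rw [conjChar_eq_comp]; exact htr _]
        rw [show conj (θ n) = θ n from Complex.conj_eq_iff_im.2 (hext n ▸ him _)]
      have key : ∀ n : N, f (g * n) = (M ⟨g * g, hgg⟩ * (σ n * τ n)).trace := fun n => by
        rw [hf]
        dsimp only
        rw [hmem, CfsgLib.Frobenius.extendByZero_of_mem T ρ.character (T.mul_mem hgg (hNm n)),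
          ← trace_toMatRep]
        congr 1
        rw [show σ n * τ n = M (Subgroup.inclusion hNT (MulAut.conjNormal g⁻¹ n) *
          Subgroup.inclusion hNT n) from (map_mul M _ _).symm, ← map_mul]
        exact congrArg M (Subtype.ext (by simp [mul_assoc]))
      rw [Finset.sum_congr rfl fun n _ => key n, ← Matrix.trace_sum, ← Matrix.mul_sum,
        sum_mul_eq_zero_of_orthogonal σ τ horth, Matrix.mul_zero, Matrix.trace_zero]
    · refine Finset.sum_eq_zero fun n _ => ?_
      rw [hf]
      dsimp only
      rw [hmem]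
      exact CfsgLib.Frobenius.extendByZero_of_not_mem T ρ.character
        fun h => hgg ((T.mul_mem_cancel_right (hNm n)).1 h)
  have hout : ∑ g ∈ (Finset.univ.filter fun g : G => g ∈ T)ᶜ, f g = 0 := by
    set S := (Finset.univ.filter fun g : G => g ∈ T)ᶜ with hS
    have hS' : ∀ g, g ∈ S ↔ g ∉ T := fun g => by simp [hS]
    have h2 : ∀ n : N, ∑ g ∈ S, f g = ∑ g ∈ S, f (g * n) := fun n => by
      refine (Finset.sum_equiv (Equiv.mulRight (n : G)) (fun g => ?_) (fun g _ => rfl)).symm
      rw [hS', hS']
      exact not_congr (T.mul_mem_cancel_right (hNT n.2)).symm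
    have h3 : (Fintype.card N) • ∑ g ∈ S, f g = 0 := by
      rw [← Finset.card_univ, ← Finset.sum_const, Finset.sum_congr rfl fun n _ => h2 n,
        Finset.sum_comm]
      exact Finset.sum_eq_zero fun g hg => hzero g ((hS' g).1 hg)
    exact (smul_eq_zero.1 h3).resolve_left Fintype.card_ne_zero
  rw [fsIndicator_indFun, ← hsplit, hin, hout, add_zero]
  rfl

end CfsgLib.Jordan
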