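import Cfsg.Agent.Lib.Jordan.GaloisNorm
import Cfsg.Agent.Lib.Clifford.Eigen
import Cfsg.Agent.Lib.BlockLocal.CosetTrace
import Cfsg.Agent.Lib.CharTheory.Basic
import Cfsg.Agent.Lib.CharTheory.Values

/-!
The quadratic form of Knörr for an abelian group with a family of subgroups of trivial
intersection, and the bound on the weighted norm of character values.
-/

set_option autoImplicit false
set_option linter.style.haveILetI false
set_option linter.unusedSectionVars false

open scoped ComplexConjugate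

namespace CfsgLib.Jordan

open Finset

/-- The tensor product of the forms `(m + 1) δ - 1`. -/
noncomputable def knorrForm {r : ℕ} {A : Fin r → Type*} [∀ i, Fintype (A i)]
    [∀ i, DecidableEq (A i)] (d : (∀ i, A i) → ℂ) : ℂ :=
  ∑ a, ∑ b, d a * conj (d b) *
    ∏ i, (((Fintype.card (A i) : ℂ) + 1) * (if a i = b i then 1 else 0) - 1)

theorem knorr_scalar_identity {α : Type*} [Fintype α] [DecidableEq α] (x y : α → ℂ) :
    ∑ a, ∑ b, x a * y b * (((Fintype.card α : ℂ) + 1) * (if a = b then 1 else 0) - 1) =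
      ∑ a, x a * y a + (1 / 2) * ∑ a, ∑ b, (x a - x b) * (y a - y b) := by
  simp only [mul_sub, sub_mul, Finset.sum_sub_distrib, mul_one, mul_ite, mul_zero,
    Finset.sum_ite_eq, Finset.mem_univ, if_true, Finset.sum_const, Finset.card_univ, nsmul_eq_mul,
    ← Finset.mul_sum, ← Finset.sum_mul]
  ring

theorem knorrForm_succ {r : ℕ} {A : Fin (r + 1) → Type*} [∀ i, Fintype (A i)]
    [∀ i, DecidableEq (A i)] (d : (∀ i, A i) → ℂ) :
    knorrForm d = (∑ a, knorrForm (A := fun i => A i.succ) fun x => d (Fin.cons a x)) +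
      (1 / 2) * ∑ a, ∑ b, knorrForm (A := fun i => A i.succ) fun x =>
        d (Fin.cons a x) - d (Fin.cons b x) := by
  unfold knorrForm
  rw [← (Fin.consEquiv A).sum_comp, Fintype.sum_prod_type]
  simp only [← (Fin.consEquiv A).sum_comp (fun b => d _ * conj (d b) * _),
    Fintype.sum_prod_type, Fin.consEquiv_apply, Fin.prod_univ_succ, Fin.cons_zero, Fin.cons_succ]
  set k := fun x y : ∀ i : Fin r, A i.succ =>
    ∏ i, (((Fintype.card (A i.succ) : ℂ) + 1) * (if x i = y i then 1 else 0) - 1)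
  have hk : ∀ x y : ∀ i : Fin r, A i.succ,
      ∑ a : A 0, ∑ b : A 0, d (Fin.cons a x) * conj (d (Fin.cons b y)) *
        ((((Fintype.card (A 0) : ℂ) + 1) * (if a = b then 1 else 0) - 1) * k x y) =
      (∑ a : A 0, d (Fin.cons a x) * conj (d (Fin.cons a y)) * k x y) + (1 / 2) *
        ∑ a : A 0, ∑ b : A 0, (d (Fin.cons a x) - d (Fin.cons b x)) *
          conj (d (Fin.cons a y) - d (Fin.cons b y)) * k x y := by
    intro x y
    simp only [← mul_assoc, map_sub, ← Finset.sum_mul]
    rw [knorr_scalar_identity (fun a => d (Fin.cons a x)) (fun a => conj (d (Fin.cons a y))),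
      add_mul]
  calc ∑ a : A 0, ∑ x, ∑ b : A 0, ∑ y, d (Fin.cons a x) * conj (d (Fin.cons b y)) *
        ((((Fintype.card (A 0) : ℂ) + 1) * (if a = b then 1 else 0) - 1) * k x y)
      = ∑ x, ∑ y, ∑ a : A 0, ∑ b : A 0, d (Fin.cons a x) * conj (d (Fin.cons b y)) *
        ((((Fintype.card (A 0) : ℂ) + 1) * (if a = b then 1 else 0) - 1) * k x y) := by
        rw [Finset.sum_comm]
        refine Finset.sum_congr rfl fun x _ => ?_
        conv_rhs => rw [Finset.sum_comm]
        exact Finset.sum_congr rfl fun a _ => Finset.sum_comm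
    _ = _ := by
        simp only [hk, Finset.sum_add_distrib]
        congr 1
        · conv_rhs => rw [Finset.sum_comm]
          exact Finset.sum_congr rfl fun x _ => Finset.sum_comm
        · simp only [Finset.mul_sum]
          calc ∑ x, ∑ y, ∑ a : A 0, ∑ b : A 0, _
              = ∑ a : A 0, ∑ x, ∑ y, ∑ b : A 0, _ := by
                rw [Finset.sum_congr rfl fun x _ => Finset.sum_comm, Finset.sum_comm]
            _ = _ := Finset.sum_congr rfl fun a _ => by
                rw [Finset.sum_congr rfl fun x _ => Finset.sum_comm, Finset.sum_comm]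

theorem card_le_card_compl_add_half {α V : Type*} [Fintype α] [DecidableEq α] [AddCommGroup V]
    [DecidableEq V] (d : α → V) (h : ∃ a, d a ≠ 0) :
    (Fintype.card α : ℝ) ≤ (univ.filter fun a => d a ≠ 0).card +
      (1 / 2) * ((univ ×ˢ univ).filter fun q : α × α => d q.1 - d q.2 ≠ 0).card := by
  set N := univ.filter fun a => d a ≠ 0 with hN
  set Z := univ.filter fun a => ¬ d a ≠ 0 with hZ
  have hsum : N.card + Z.card = Fintype.card α := Finset.card_filter_add_card_filter_not _
  have hsub : N ×ˢ Z ∪ Z ×ˢ N ⊆ (univ ×ˢ univ).filter fun q : α × α => d q.1 - d q.2 ≠ 0 := by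
    intro q hq
    simp only [Finset.mem_union, Finset.mem_product, hN, hZ, Finset.mem_filter, Finset.mem_univ,
      true_and, not_not] at hq ⊢
    rcases hq with ⟨h1, h2⟩ | ⟨h1, h2⟩ <;> simp [h1, h2]
  have hdis : Disjoint (N ×ˢ Z) (Z ×ˢ N) := by
    rw [Finset.disjoint_left]
    intro q hq hq'
    simp only [Finset.mem_product, hN, hZ, Finset.mem_filter, Finset.mem_univ, true_and,
      not_not] at hq hq'
    exact hq.1 hq'.1
  have hcard := Finset.card_le_card hsub
  rw [Finset.card_union_of_disjoint hdis, Finset.card_product, Finset.card_product] at hcard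
  obtain ⟨a, ha⟩ := h
  have hpos : 1 ≤ N.card := Finset.card_pos.2 ⟨a, by simp [hN, ha]⟩
  have h2 : (Z.card : ℝ) ≤ (N.card : ℝ) * Z.card :=
    le_mul_of_one_le_left (Nat.cast_nonneg _) (by exact_mod_cast hpos)
  have h3 : (N.card : ℝ) * Z.card + Z.card * N.card ≤
      ((univ ×ˢ univ).filter fun q : α × α => d q.1 - d q.2 ≠ 0).card := by exact_mod_cast hcard
  have h4 : (N.card : ℝ) + Z.card = Fintype.card α := by exact_mod_cast hsum
  linarith

/-- The form takes values at least the product of the cardinalities on vectors with entries in a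
lattice of minimum `card ι`. -/
theorem knorrForm_bound.{w, w'} {ι : Type w'} [Fintype ι] (L : AddSubgroup (ι → ℂ))
    (hL : ∀ z ∈ L, z ≠ 0 → (Fintype.card ι : ℝ) ≤ ∑ i, ‖z i‖ ^ 2) :
    ∀ {r : ℕ} {A : Fin r → Type w} [∀ i, Fintype (A i)] [∀ i, DecidableEq (A i)]
      (d : (∀ i, A i) → ι → ℂ), (∀ a, d a ∈ L) →
      0 ≤ ∑ i, (knorrForm fun a => d a i).re ∧ ((∃ a, d a ≠ 0) →
        (Fintype.card ι : ℝ) * ∏ j, (Fintype.card (A j) : ℝ) ≤ ∑ i, (knorrForm fun a => d a i).re) := by
  intro r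
  induction r with
  | zero =>
    intro A _ _ d hd
    have hform : ∀ i, (knorrForm fun a => d a i).re = ‖d default i‖ ^ 2 := by
      intro i
      simp only [knorrForm, Finset.univ_unique, Finset.sum_singleton, Fin.prod_univ_zero, mul_one,
        Complex.mul_conj', ← Complex.ofReal_pow, Complex.ofReal_re]
    simp only [hform, Fin.prod_univ_zero, mul_one]
    refine ⟨by positivity, fun ⟨a, ha⟩ => hL _ (hd _) ?_⟩
    rwa [Subsingleton.elim a default] at ha
  | succ r ih =>
    intro A _ _ d hd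
    classical
    let da : A 0 → (∀ i : Fin r, A i.succ) → ι → ℂ := fun a x => d (Fin.cons a x)
    let Φ : ((∀ i : Fin r, A i.succ) → ι → ℂ) → ℝ := fun e => ∑ i, (knorrForm fun x => e x i).re
    have hsplit : ∑ i, (knorrForm fun a => d a i).re =
        (∑ a, Φ (da a)) + (1 / 2) * ∑ q ∈ (univ : Finset (A 0)) ×ˢ univ, Φ (da q.1 - da q.2) := by
      simp only [Φ, da, Finset.sum_product, knorrForm_succ, Pi.sub_apply]
      rw [Finset.sum_congr rfl fun i _ => Complex.add_re _ _, Finset.sum_add_distrib]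
      congr 1
      · simp only [Complex.re_sum]
        exact Finset.sum_comm
      · rw [show (1 / 2 : ℂ) = ((1 / 2 : ℝ) : ℂ) by norm_num]
        simp only [Complex.re_ofReal_mul, Complex.re_sum, ← Finset.mul_sum]
        congr 1
        rw [Finset.sum_comm]
        exact Finset.sum_congr rfl fun a _ => Finset.sum_comm
    have hmem : ∀ a b x, (da a - da b) x ∈ L := fun a b x => L.sub_mem (hd _) (hd _)
    have h1 : ∀ a, 0 ≤ Φ (da a) := fun a => (ih (da a) fun x => hd _).1
    have h2 : ∀ a b, 0 ≤ Φ (da a - da b) := fun a b => (ih _ (hmem a b)).1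
    rw [hsplit]
    refine ⟨add_nonneg (Finset.sum_nonneg fun a _ => h1 a)
      (mul_nonneg (by norm_num) (Finset.sum_nonneg fun q _ => h2 _ _)), fun ⟨a, ha⟩ => ?_⟩
    set N : ℝ := (Fintype.card ι : ℝ) * ∏ j : Fin r, (Fintype.card (A j.succ) : ℝ) with hN
    have hex : ∃ a, da a ≠ 0 := ⟨a 0, fun h => ha (by
      have := congrFun h (Fin.tail a)
      simpa [da, Fin.cons_self_tail] using this)⟩
    have e1 : ((univ.filter fun a => da a ≠ 0).card : ℝ) * N ≤ ∑ a, Φ (da a) := by
      rw [← nsmul_eq_mul, ← Finset.sum_const]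
      refine (Finset.sum_le_sum fun a ha' => ?_).trans
        (Finset.sum_le_sum_of_subset_of_nonneg (Finset.subset_univ _) fun a _ _ => h1 a)
      exact (ih (da a) fun x => hd _).2 (Function.ne_iff.1 (Finset.mem_filter.1 ha').2)
    have e2 : (((univ ×ˢ univ).filter fun q : A 0 × A 0 => da q.1 - da q.2 ≠ 0).card : ℝ) * N ≤
        ∑ q ∈ (univ : Finset (A 0)) ×ˢ univ, Φ (da q.1 - da q.2) := by
      rw [← nsmul_eq_mul, ← Finset.sum_const]
      refine (Finset.sum_le_sum fun q hq => ?_).trans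
        (Finset.sum_le_sum_of_subset_of_nonneg (Finset.filter_subset _ _) fun q _ _ => h2 _ _)
      exact (ih _ (hmem q.1 q.2)).2 (Function.ne_iff.1 (Finset.mem_filter.1 hq).2)
    have hN0 : 0 ≤ N := by positivity
    have e3 := mul_le_mul_of_nonneg_right (card_le_card_compl_add_half da hex) hN0
    rw [Fin.prod_univ_succ, mul_left_comm, ← hN]
    linarith

variable {H : Type*} [CommGroup H] [Finite H]

/-- The form at the Fourier coefficients of `f` pulled back to the product of the duals. -/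
theorem knorrForm_fourier {r : ℕ} (K : Fin r → Subgroup H) [∀ i, Fintype ((H ⧸ K i) →* ℂˣ)]
    [∀ i, DecidableEq ((H ⧸ K i) →* ℂˣ)] [Fintype H] [∀ i (h : H), Decidable (h ∈ K i)]
    (hK : ∀ h : H, (∀ i, h ∈ K i) → h = 1) (f : H → ℂ) :
    (knorrForm fun a : ∀ i, (H ⧸ K i) →* ℂˣ =>
        (Nat.card H : ℂ)⁻¹ * ∑ h, f h * ∏ i, (a i (h⁻¹ : H) : ℂ)).re =
      (∏ i, ((K i).index : ℝ)) / (Nat.card H : ℝ) ^ 2 *
        ∑ h, (∏ i, if h ∈ K i then (1 : ℝ) else ((K i).index : ℝ) + 1) * ‖f h‖ ^ 2 := by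
  classical
  have hm : ∀ i, Fintype.card ((H ⧸ K i) →* ℂˣ) = (K i).index := by
    intro i
    rw [← Nat.card_eq_fintype_card, CommGroup.card_monoidHom_of_hasEnoughRootsOfUnity]
    rfl
  have hsum : ∀ i (x : H), ∑ a : (H ⧸ K i) →* ℂˣ, (a (x : H ⧸ K i) : ℂ) =
      if x ∈ K i then ((K i).index : ℂ) else 0 := by
    intro i x
    haveI := Fintype.ofFinite (H ⧸ K i)
    haveI : Decidable ((x : H ⧸ K i) = 1) := Classical.propDecidable _
    convert CfsgLib.Brauer.sum_homUnits_apply (x : H ⧸ K i) using 2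
    · ext a; simp
    · exact (QuotientGroup.eq_one_iff x).symm
    · rfl
  have hconj : ∀ i (a : (H ⧸ K i) →* ℂˣ) (x : H ⧸ K i), conj (a x : ℂ) = (a x⁻¹ : ℂ) := by
    intro i a x
    rw [map_inv, Units.val_inv_eq_inv_val, Complex.inv_eq_conj
      (CfsgLib.CharTheory.norm_eq_one_of_pow_eq_one' (Nat.card_pos (α := H ⧸ K i)).ne'
        (by rw [← Units.val_pow_eq_pow_val, ← map_pow, pow_card_eq_one', map_one, Units.val_one]))]
  -- one factor
  have hfac : ∀ i (h k : H),
      ∑ a : (H ⧸ K i) →* ℂˣ, ∑ b : (H ⧸ K i) →* ℂˣ, (a ((h⁻¹ : H) : H ⧸ K i) : ℂ) *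
          conj (b ((k⁻¹ : H) : H ⧸ K i) : ℂ) *
          (((Fintype.card ((H ⧸ K i) →* ℂˣ) : ℂ) + 1) * (if a = b then 1 else 0) - 1) =
        if h⁻¹ * k ∈ K i then ((K i).index : ℂ) *
          ((if h ∈ K i then (1 : ℝ) else ((K i).index : ℝ) + 1 : ℝ) : ℂ) else 0 := by
    intro i h k
    simp only [mul_sub, Finset.sum_sub_distrib, mul_one, mul_ite, mul_zero, Finset.sum_ite_eq,
      Finset.mem_univ, if_true, hm, ← Finset.mul_sum, ← Finset.sum_mul, hconj,
      ← QuotientGroup.mk_inv, inv_inv]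
    have hprod : ∀ a : (H ⧸ K i) →* ℂˣ, (a ((h⁻¹ : H) : H ⧸ K i) : ℂ) * (a (k : H ⧸ K i) : ℂ) =
        (a ((h⁻¹ * k : H) : H ⧸ K i) : ℂ) := fun a => by
      rw [QuotientGroup.mk_mul, map_mul, Units.val_mul]
    simp only [hprod, hsum, inv_mem_iff]
    by_cases h1 : h⁻¹ * k ∈ K i
    · simp only [if_pos h1]
      have hiff : k ∈ K i ↔ h ∈ K i := by
        constructor <;> intro h2
        · simpa using (K i).mul_mem h2 ((K i).inv_mem h1)
        · simpa using (K i).mul_mem h2 h1
      by_cases h2 : h ∈ K i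
      · rw [if_pos h2, if_pos h2, if_pos (hiff.2 h2)]
        push_cast
        ring
      · rw [if_neg h2, if_neg h2]
        push_cast
        ring
    · rw [if_neg h1, if_neg h1]
      by_cases h2 : h ∈ K i
      · have : k ∉ K i := fun h3 => h1 ((K i).mul_mem ((K i).inv_mem h2) h3)
        rw [if_neg this]; ring
      · rw [if_neg h2]; ring
  have hexp : (knorrForm fun a : ∀ i, (H ⧸ K i) →* ℂˣ =>
      (Nat.card H : ℂ)⁻¹ * ∑ h, f h * ∏ i, (a i (h⁻¹ : H) : ℂ)) =
      ((Nat.card H : ℂ)⁻¹) ^ 2 * ∑ h, ∑ k, f h * conj (f k) *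
        ∏ i, if h⁻¹ * k ∈ K i then ((K i).index : ℂ) *
          ((if h ∈ K i then (1 : ℝ) else ((K i).index : ℝ) + 1 : ℝ) : ℂ) else 0 := by
    simp only [← hfac, Fintype.prod_sum, knorrForm, map_mul, map_inv₀, map_natCast, map_sum,
      map_prod, Finset.mul_sum, Finset.sum_mul, Finset.prod_mul_distrib]
    conv_rhs => rw [Finset.sum_comm]
    rw [Finset.sum_congr rfl fun a _ => Finset.sum_comm, Finset.sum_comm]
    refine Finset.sum_congr rfl fun h _ => ?_
    rw [Finset.sum_congr rfl fun a _ => Finset.sum_comm, Finset.sum_comm]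
    refine Finset.sum_congr rfl fun k _ => ?_
    exact Finset.sum_congr rfl fun a _ => Finset.sum_congr rfl fun b _ => by ring
  have hdiag : ∀ h : H, ∑ k, f h * conj (f k) *
      ∏ i, (if h⁻¹ * k ∈ K i then ((K i).index : ℂ) *
        ((if h ∈ K i then (1 : ℝ) else ((K i).index : ℝ) + 1 : ℝ) : ℂ) else 0) =
      (((∏ i, ((K i).index : ℝ)) *
        ((∏ i, if h ∈ K i then (1 : ℝ) else ((K i).index : ℝ) + 1) * ‖f h‖ ^ 2) : ℝ) : ℂ) := by
    intro h
    rw [Finset.sum_eq_single h]
    · simp only [inv_mul_cancel, one_mem, if_true, Finset.prod_mul_distrib, Complex.mul_conj']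
      push_cast
      ring
    · intro k _ hk
      have : ¬ ∀ i, h⁻¹ * k ∈ K i := fun hall => hk (inv_mul_eq_one.1 (hK _ hall)).symm
      push Not at this
      obtain ⟨i, hi⟩ := this
      rw [Finset.prod_eq_zero (Finset.mem_univ i) (if_neg hi), mul_zero]
    · simp
  rw [hexp, Finset.sum_congr rfl fun h _ => hdiag h, ← Complex.ofReal_sum, ← Complex.ofReal_natCast,
    ← Complex.ofReal_inv, ← Complex.ofReal_pow, ← Complex.ofReal_mul, Complex.ofReal_re,
    ← Finset.mul_sum]
  ring

end CfsgLib.Jordan
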