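import Cfsg.Agent.Lib.Jordan.RelGlauberman
import Cfsg.Prelude.Def_Blocks

/-!
The relative correspondence: reduction to the inertia group, uniqueness, existence, and the
congruence of degrees.
-/

set_option autoImplicit false
set_option linter.style.haveILetI false
set_option linter.unusedSectionVars false

open scoped ComplexConjugate

namespace CfsgLib.Jordan

open Cfsg CfsgLib.CharTheory CfsgLib.Frobenius CfsgLib.Clifford CfsgLib.CharDegreesTheory

variable {S K C : Type*} [Group S] [Finite S] [Group K] [Finite K] [Group C] [Finite C]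
  {φ : S →* MulAut K} {ι : C →* K} {Q : Subgroup K} [hQn : Q.Normal] {p : ℕ} [hp : Fact p.Prime]

namespace RelSetup

variable (h : RelSetup φ ι Q p)
include h

/-- The correspondence reduces to the inertia group of an invariant character of `Q`. -/
theorem inertia_reduction {θ : Q → ℂ} (hθ : IsIrrCharacter Q θ)
    (hS : ∀ s (q q' : Q), (q' : K) = φ s q → θ q' = θ q) [Fintype Q] [Fintype (Q.comap ι)] :
    (∀ (χ : IrrCharacter K) (β β' : IrrCharacter C), CfsgLib.CharDegreesTheory.IsInvariant φ (χ : K → ℂ) →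
      classInner (fun q : Q => (χ : K → ℂ) q) θ ≠ 0 →
      classInner (fun x : Q.comap ι => (β : C → ℂ) x) (fun x => θ (h.eQ x)) ≠ 0 →
      classInner (fun x : Q.comap ι => (β' : C → ℂ) x) (fun x => θ (h.eQ x)) ≠ 0 →
      ¬ p ∣ mult ι (χ : K → ℂ) (β : C → ℂ) → ¬ p ∣ mult ι (χ : K → ℂ) (β' : C → ℂ) → β = β') ∧
    (∀ β : IrrCharacter C,
      classInner (fun x : Q.comap ι => (β : C → ℂ) x) (fun x => θ (h.eQ x)) ≠ 0 →
      ∃ χ : IrrCharacter K, CfsgLib.CharDegreesTheory.IsInvariant φ (χ : K → ℂ) ∧ ¬ p ∣ mult ι (χ : K → ℂ) (β : C → ℂ)) := by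
  classical
  haveI := Fintype.ofFinite K
  haveI := Fintype.ofFinite C
  set T := inertiaOf Q θ with hTdef
  have hT : ∀ g : K, g ∈ T ↔ conjChar Q θ g = θ := fun g => mem_inertiaOf
  have hQT : Q ≤ T := le_inertiaOf (IsIrrCharacter.isClassFunction hθ)
  have hTst : ∀ s, ∀ g ∈ T, φ s g ∈ T := by
    intro s g hg
    rw [hT]
    funext q
    have e : φ s (φ s⁻¹ (q : K)) = q := by
      rw [← MulAut.mul_apply, ← map_mul, mul_inv_cancel, map_one, MulAut.one_apply]
    have h1 := congrFun ((hT g).1 hg) ⟨φ s⁻¹ q, h.stable _ q q.2⟩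
    rw [conjChar_apply] at h1 ⊢
    rw [← hS s⁻¹ q ⟨φ s⁻¹ q, h.stable _ q q.2⟩ rfl, ← h1]
    refine hS s _ _ ?_
    show φ s g * q * (φ s g)⁻¹ = φ s (g * φ s⁻¹ q * g⁻¹)
    rw [map_mul (φ s), map_mul (φ s), map_inv (φ s), e]
  let φT : S →* MulAut T :=
    { toFun := fun s =>
        { toFun := fun t => ⟨φ s t, hTst s t t.2⟩
          invFun := fun t => ⟨φ s⁻¹ t, hTst s⁻¹ t t.2⟩
          left_inv := fun t => Subtype.ext (by simp)
          right_inv := fun t => Subtype.ext (by simp)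
          map_mul' := fun a b => Subtype.ext (by simp) }
      map_one' := MulEquiv.ext fun t => Subtype.ext (by simp)
      map_mul' := fun s t => MulEquiv.ext fun u => Subtype.ext (by simp) }
  set TC := T.comap ι with hTC
  let ιT : TC →* T := (ι.comp TC.subtype).codRestrict T fun c => c.2
  haveI := Fintype.ofFinite T
  haveI := Fintype.ofFinite TC
  have hsetup : RelSetup φT ιT (Q.subgroupOf T) p := by
    refine ⟨h.isPGroup, h.isPGroupQ.comap_subtype, ?_, fun s q hq => h.stable s _ hq, fun a b hab => ?_, fun t => ?_⟩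
    · exact fun hd => h.not_dvd (hd.trans (Subgroup.relIndex_dvd_index_of_normal Q T))
    · exact Subtype.ext (h.inj (congrArg Subtype.val hab))
    · constructor
      · intro ht
        obtain ⟨c, hc⟩ := (h.fixed_iff (t : K)).1 fun s => ht s
        exact ⟨⟨c, by rw [hTC, Subgroup.mem_comap, hc]; exact t.2⟩, Subtype.ext hc⟩
      · rintro ⟨c, rfl⟩ s
        exact (h.fixed_iff (ι c)).2 ⟨c, rfl⟩ s
  haveI := Fintype.ofFinite (Q.subgroupOf T)
  haveI := Fintype.ofFinite ((Q.subgroupOf T).comap ιT)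
  set θT : Q.subgroupOf T → ℂ := fun x => θ (Subgroup.subgroupOfEquivOfLe hQT x) with hθT
  have hθTirr : IsIrrCharacter (Q.subgroupOf T) θT :=
    CfsgLib.CharDegreesTheory.isIrrCharacter_comp_equiv hθ (Subgroup.subgroupOfEquivOfLe hQT)
  have hTS : ∀ s (q q' : Q.subgroupOf T), (q' : T) = φT s q → θT q' = θT q := fun s q q' hq =>
    hS s _ _ (congrArg Subtype.val hq)
  have hTK : ∀ g : T, conjChar (Q.subgroupOf T) θT g = θT := by
    intro g
    funext x
    rw [conjChar_apply]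
    have h1 := congrFun ((hT g).1 g.2) (Subgroup.subgroupOfEquivOfLe hQT x)
    rw [conjChar_apply] at h1
    refine Eq.trans ?_ h1
    exact congrArg θ (Subtype.ext rfl)
  -- restrictions over `θ`
  have hoverT : ∀ ψ : T → ℂ, classInner (fun q : Q => ψ ⟨q, hQT q.2⟩) θ =
      classInner (fun x : Q.subgroupOf T => ψ x) θT := fun ψ => by
    rw [← classInner_comp_mulEquiv (Subgroup.subgroupOfEquivOfLe hQT)]
    rfl
  -- the same for the fixed points
  set θC : Q.comap ι → ℂ := fun x => θ (h.eQ x) with hθC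
  have hθCirr : IsIrrCharacter (Q.comap ι) θC := CfsgLib.CharDegreesTheory.isIrrCharacter_comp_equiv hθ h.eQ
  have hCinert : ∀ c : C, c ∈ TC ↔ conjChar (Q.comap ι) θC c = θC := by
    intro c
    rw [hTC, Subgroup.mem_comap, hT, hθC, h.conjChar_eQ]
    refine ⟨fun e => by rw [e], fun e => funext fun q => ?_⟩
    have := congrFun e (h.eQ.symm q)
    simpa using this
  have hQCT : Q.comap ι ≤ TC := fun c hc => hQT hc
  let eC : Q.comap ι ≃* (Q.subgroupOf T).comap ιT :=
    { toFun := fun x => ⟨⟨x, hQCT x.2⟩, x.2⟩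
      invFun := fun y => ⟨(y : TC), y.2⟩
      left_inv := fun x => rfl
      right_inv := fun y => rfl
      map_mul' := fun a b => rfl }
  have hoverC : ∀ η : TC → ℂ, classInner (fun x : Q.comap ι => η ⟨x, hQCT x.2⟩) θC =
      classInner (fun y : (Q.subgroupOf T).comap ιT => η y) (fun y => θT (hsetup.eQ y)) := fun η => by
    rw [← classInner_comp_mulEquiv eC]
    rfl
  -- multiplicities
  have hmult : ∀ (χ : IrrCharacter K) (ψ : IrrCharacter T) (β : IrrCharacter C) (η : IrrCharacter TC),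
      indFun T (ψ : T → ℂ) = (χ : K → ℂ) →
      classInner (fun q : Q => (ψ : T → ℂ) ⟨q, hQT q.2⟩) θ ≠ 0 →
      indFun TC (η : TC → ℂ) = (β : C → ℂ) →
      classInner (fun x : Q.comap ι => (η : TC → ℂ) ⟨x, hQCT x.2⟩) θC ≠ 0 →
      mult ι (χ : K → ℂ) (β : C → ℂ) = mult ιT (ψ : T → ℂ) (η : TC → ℂ) := by
    intro χ ψ β η hψ hψθ hη hηθ
    haveI := Fintype.ofFinite (IrrCharacter T)
    have hχc := IsIrrCharacter.isCharacter χ.2
    obtain ⟨m, hm⟩ := IsCharacter.exists_sum (CfsgLib.Coherence.isCharacter_comp hχc T.subtype)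
    have hmφ : ∀ φ' : IrrCharacter T, classInner (fun t : T => (χ : K → ℂ) t) (φ' : T → ℂ) = (m φ' : ℂ) :=
      fun φ' => by
        rw [show (fun t : T => (χ : K → ℂ) t) = ∑ a, (m a : ℂ) • (a : T → ℂ) from hm]
        exact classInner_sum_irr _ φ'
    have hone : m ψ = 1 := by
      have h1 := classInner_indFun_right T (ψ : T → ℂ) (χ : K → ℂ) (IsIrrCharacter.isClassFunction χ.2)
      rw [hψ, classInner_self_of_isIrr χ.2, hmφ] at h1
      exact_mod_cast h1.symm
    have hzero : ∀ φ' : IrrCharacter T, m φ' ≠ 0 → φ' ≠ ψ →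
        classInner (fun c : TC => (φ' : T → ℂ) (ιT c)) (η : TC → ℂ) = 0 := by
      intro φ' hm0 hne
      by_contra hne0
      have h1 : classInner (fun x : Q.comap ι => (φ' : T → ℂ) (ιT ⟨x, hQCT x.2⟩)) θC ≠ 0 :=
        classInner_res_res_ne_zero (f := (Subgroup.inclusion hQCT)) (IsIrrCharacter.isCharacter φ'.2)
          ιT η ⟨θC, hθCirr⟩ hne0 hηθ
      have h2 : classInner (fun q : Q => (φ' : T → ℂ) ⟨q, hQT q.2⟩) θ ≠ 0 := by
        rw [← classInner_comp_mulEquiv h.eQ]
        exact h1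
      have h3 := (isIrrCharacter_indFun_inertia hθ hT hQT φ'.2 h2).1
      have h4 : indFun T (φ' : T → ℂ) = (χ : K → ℂ) := by
        by_contra hne4
        have h5 := classInner_indFun_right T (φ' : T → ℂ) (χ : K → ℂ)
          (IsIrrCharacter.isClassFunction χ.2)
        rw [classInner_eq_zero_of_ne χ.2 h3 (Ne.symm hne4), hmφ] at h5
        exact hm0 (by exact_mod_cast h5.symm)
      exact hne (Subtype.ext (indFun_inertia_injective hθ hT hQT φ'.2 ψ.2 h2 hψθ (h4.trans hψ.symm)))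
    have key : classInner (fun c : C => (χ : K → ℂ) (ι c)) (β : C → ℂ) =
        classInner (fun c : TC => (ψ : T → ℂ) (ιT c)) (η : TC → ℂ) := by
      rw [← hη, classInner_indFun_right TC (η : TC → ℂ) _
        (IsCharacter.isClassFunction (CfsgLib.Coherence.isCharacter_comp hχc ι)),
        show (fun c : TC => (χ : K → ℂ) (ι c)) =
          ∑ a : IrrCharacter T, (m a : ℂ) • fun c : TC => (a : T → ℂ) (ιT c) from funext fun c => by
            have e := congrFun hm (ιT c)
            simp only [Finset.sum_apply, Pi.smul_apply] at e ⊢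
            exact e]
      simp only [classInner_sum_left, classInner_smul_left]
      rw [Finset.sum_eq_single ψ (fun a _ ha => ?_) (by simp), hone, Nat.cast_one, one_mul]
      by_cases hm0 : m a = 0
      · simp [hm0]
      · rw [hzero a hm0 ha, mul_zero]
    rw [classInner_eq_mult ι hχc, classInner_eq_mult ιT (IsIrrCharacter.isCharacter ψ.2)] at key
    exact_mod_cast key
  refine ⟨fun χ β β' hχ hχθ hβθ hβθ' hm hm' => ?_, fun β hβθ => ?_⟩
  · obtain ⟨ψ, hψ, hψχ, hψm⟩ := exists_indFun_inertia_eq hθ hT hQT χ.2 hχθ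
    obtain ⟨η, hη, hηβ, hηm⟩ := exists_indFun_inertia_eq hθCirr hCinert hQCT β.2 hβθ
    obtain ⟨η', hη', hηβ', hηm'⟩ := exists_indFun_inertia_eq hθCirr hCinert hQCT β'.2 hβθ'
    have hψθ : classInner (fun q : Q => ψ ⟨q, hQT q.2⟩) θ ≠ 0 := hψm ▸ hχθ
    have hψinv : CfsgLib.CharDegreesTheory.IsInvariant φT ψ := by
      intro s t
      have h1 : indFun T (fun t => ψ (φT s t)) = (χ : K → ℂ) := by
        rw [indFun_comp_mulEquiv T (φ s) (φT s) (fun t => rfl), hψχ]
        exact funext (hχ s)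
      have h2 : classInner (fun q : Q => ψ (φT s ⟨q, hQT q.2⟩)) θ ≠ 0 := by
        let eq : Q ≃* Q :=
          { toFun := fun q => ⟨φ s q, h.stable s q q.2⟩
            invFun := fun q => ⟨φ s⁻¹ q, h.stable s⁻¹ q q.2⟩
            left_inv := fun q => Subtype.ext (by simp)
            right_inv := fun q => Subtype.ext (by simp)
            map_mul' := fun a b => Subtype.ext (by simp) }
        have h3 := classInner_comp_mulEquiv eq (fun q : Q => ψ ⟨q, hQT q.2⟩) θ
        rw [show (fun q => θ (eq q)) = θ from funext fun q => hS s q _ rfl] at h3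
        exact h3 ▸ hψθ
      exact congrFun (indFun_inertia_injective hθ hT hQT
        (isIrrCharacter_comp_mulEquiv hψ (φT s)) hψ h2 hψθ (h1.trans hψχ.symm)) t
    have hm1 := hmult χ ⟨ψ, hψ⟩ β ⟨η, hη⟩ hψχ hψθ hηβ (hηm ▸ hβθ)
    have hm2 := hmult χ ⟨ψ, hψ⟩ β' ⟨η', hη'⟩ hψχ hψθ hηβ' (hηm' ▸ hβθ')
    have h5 := hsetup.unique_invariant hθTirr hTS hTK (χ := ⟨ψ, hψ⟩) (η := ⟨η, hη⟩) (η' := ⟨η', hη'⟩)
      hψinv (hoverT ψ ▸ hψθ) (hoverC η ▸ hηm ▸ hβθ) (hoverC η' ▸ hηm' ▸ hβθ') (hm1 ▸ hm) (hm2 ▸ hm')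
    refine Subtype.ext ?_
    rw [← hηβ, ← hηβ', show η = η' from congrArg Subtype.val h5]
  · obtain ⟨η, hη, hηβ, hηm⟩ := exists_indFun_inertia_eq hθCirr hCinert hQCT β.2 hβθ
    obtain ⟨ψ, hψinv, hψθ', hψm⟩ := hsetup.surjective_invariant hθTirr hTS hTK (η := ⟨η, hη⟩)
      (hoverC η ▸ hηm ▸ hβθ)
    have hψθ : classInner (fun q : Q => (ψ : T → ℂ) ⟨q, hQT q.2⟩) θ ≠ 0 := by
      rw [hoverT]; exact hψθ'
    let χ : IrrCharacter K := ⟨_, (isIrrCharacter_indFun_inertia hθ hT hQT ψ.2 hψθ).1⟩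
    refine ⟨χ, fun s g => ?_, ?_⟩
    · have h1 := congrFun (indFun_comp_mulEquiv T (φ s) (φT s) (fun t => rfl) (ψ : T → ℂ)) g
      rw [show (fun t => (ψ : T → ℂ) (φT s t)) = (ψ : T → ℂ) from funext (hψinv s)] at h1
      exact h1.symm
    · rw [hmult χ ψ β ⟨η, hη⟩ rfl hψθ hηβ (hηm ▸ hβθ)]
      exact hψm

/-- Every invariant character of `C` has an invariant partner. -/
theorem surjective {β : IrrCharacter C} (hβ : CfsgLib.CharDegreesTheory.IsInvariant h.actC (β : C → ℂ)) :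
    ∃ χ : IrrCharacter K, CfsgLib.CharDegreesTheory.IsInvariant φ (χ : K → ℂ) ∧ ¬ p ∣ mult ι (χ : K → ℂ) (β : C → ℂ) := by
  haveI := Fintype.ofFinite Q
  haveI := Fintype.ofFinite (Q.comap ι)
  obtain ⟨θ, hθ, hS, hθβ⟩ := h.exists_invariant_below hβ
  exact (h.inertia_reduction hθ hS).2 β hθβ

/-- At most one invariant constituent has multiplicity prime to `p`. -/
theorem unique {χ : IrrCharacter K} (hχ : CfsgLib.CharDegreesTheory.IsInvariant φ (χ : K → ℂ)) {β β' : IrrCharacter C}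
    (hβ : CfsgLib.CharDegreesTheory.IsInvariant h.actC (β : C → ℂ)) (hβ' : CfsgLib.CharDegreesTheory.IsInvariant h.actC (β' : C → ℂ))
    (hm : ¬ p ∣ mult ι (χ : K → ℂ) (β : C → ℂ)) (hm' : ¬ p ∣ mult ι (χ : K → ℂ) (β' : C → ℂ)) :
    β = β' := by
  classical
  haveI := Fintype.ofFinite Q
  haveI := Fintype.ofFinite C
  haveI := Fintype.ofFinite (Q.comap ι)
  have hbelow : ∀ (γ : IrrCharacter C) (θ : Q → ℂ), IsIrrCharacter Q θ →
      ¬ p ∣ mult ι (χ : K → ℂ) (γ : C → ℂ) →
      classInner (fun x : Q.comap ι => (γ : C → ℂ) x) (fun x => θ (h.eQ x)) ≠ 0 →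
      classInner (fun q : Q => (χ : K → ℂ) q) θ ≠ 0 := by
    intro γ θ hθ hmγ hγθ
    have h1 : classInner (fun c : C => (χ : K → ℂ) (ι c)) (γ : C → ℂ) ≠ 0 := by
      rw [classInner_eq_mult ι (IsIrrCharacter.isCharacter χ.2)]
      exact Nat.cast_ne_zero.2 fun h0 => hmγ (h0 ▸ dvd_zero p)
    have h2 := classInner_res_res_ne_zero (f := (Q.comap ι).subtype) (IsIrrCharacter.isCharacter χ.2) ι
      γ ⟨_, CfsgLib.CharDegreesTheory.isIrrCharacter_comp_equiv hθ h.eQ⟩ h1 hγθ
    rw [← classInner_comp_mulEquiv h.eQ]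
    exact h2
  obtain ⟨θ, hθ, hS, hθβ⟩ := h.exists_invariant_below hβ
  obtain ⟨θ', hθ', hS', hθβ'⟩ := h.exists_invariant_below hβ'
  obtain ⟨c, hc⟩ := h.exists_conj_fixed hθ hθ' hS hS' (hbelow β θ hθ hm hθβ)
    (hbelow β' θ' hθ' hm' hθβ')
  refine (h.inertia_reduction hθ hS).1 χ β β' hχ (hbelow β θ hθ hm hθβ) hθβ ?_ hm hm'
  rw [hc, ← h.conjChar_eQ, classInner_conjChar (Q.comap ι) (IsIrrCharacter.isClassFunction β'.2)]
    at hθβ'
  exact hθβ'

/-- The congruence form of orthogonality on the invariant constituents. -/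
theorem sum_mult_modEq [Fintype (IrrCharacter C)] {χ χ' : IrrCharacter K}
    (hχ : CfsgLib.CharDegreesTheory.IsInvariant φ (χ : K → ℂ)) (hχ' : CfsgLib.CharDegreesTheory.IsInvariant φ (χ' : K → ℂ)) [Decidable (χ = χ')]
    [DecidablePred fun β : IrrCharacter C => CfsgLib.CharDegreesTheory.IsInvariant h.actC (β : C → ℂ)] :
    (Q.comap ι).index * ∑ β ∈ Finset.univ.filter (fun β : IrrCharacter C => CfsgLib.CharDegreesTheory.IsInvariant h.actC (β : C → ℂ)),
        mult ι (χ : K → ℂ) (β : C → ℂ) * mult ι (χ' : K → ℂ) (β : C → ℂ) ≡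
      (if χ = χ' then Q.index else 0) [MOD p] := by
  classical
  haveI := Fintype.ofFinite K
  haveI := Fintype.ofFinite C
  haveI := Fintype.ofFinite Q
  haveI := Fintype.ofFinite (Q.comap ι)
  haveI := Fintype.ofFinite (K ⧸ Q)
  haveI := Fintype.ofFinite (C ⧸ Q.comap ι)
  set F : K → ℂ := (χ : K → ℂ) * fun g => conj ((χ' : K → ℂ) g) with hF
  have hFc : IsCharacter K F := isCharacter_mul (IsIrrCharacter.isCharacter χ.2)
    (CfsgLib.CharTheory.isCharacter_conj (IsIrrCharacter.isCharacter χ'.2))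
  have hAc : IsCharacter K (cosetAvg Q F) := isCharacter_cosetAvg Q hFc
  let A : K ⧸ Q → ℂ := fun q => cosetAvg Q F q.out
  have hA : ∀ g : K, A (g : K ⧸ Q) = cosetAvg Q F g := by
    intro g
    obtain ⟨q, hq⟩ := QuotientGroup.mk_out_eq_mul Q g
    show cosetAvg Q F ((g : K ⧸ Q).out) = _
    rw [hq, show g * (q : K) = (g * q * g⁻¹) * g by group]
    exact cosetAvg_mem_mul Q F (hQn.conj_mem _ q.2 g) g
  have hAinv : ∀ s q, A (h.actQuot s q) = A q := by
    intro s q
    obtain ⟨g, rfl⟩ := QuotientGroup.mk_surjective q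
    rw [h.actQuot_mk, hA, hA]
    simp only [cosetAvg]
    congr 1
    let eq : Q ≃ Q :=
      { toFun := fun q => ⟨φ s q, h.stable s q q.2⟩
        invFun := fun q => ⟨φ s⁻¹ q, h.stable s⁻¹ q q.2⟩
        left_inv := fun q => Subtype.ext (by simp)
        right_inv := fun q => Subtype.ext (by simp) }
    refine (Fintype.sum_equiv eq _ _ fun q => ?_).symm
    show F ((q : K) * g) = F (φ s q * φ s g)
    rw [← map_mul]
    simp only [hF, Pi.mul_apply, hχ s, hχ' s]
  have h1 := h.quot_setup.intCong_sum A (fun q => IsCharacter.isIntegral hAc q.out) hAinv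
  have hQ0 : (Nat.card Q : ℂ) ≠ 0 := Nat.cast_ne_zero.2 Nat.card_pos.ne'
  have hK : ∑ q, A q = ((if χ = χ' then Q.index else 0 : ℕ) : ℂ) := by
    have h2 : ∑ g : K, A (g : K ⧸ Q) = (Nat.card Q : ℂ) * ∑ q, A q := by
      rw [← (Subgroup.groupEquivQuotientProdSubgroup (s := Q)).symm.sum_comp, Fintype.sum_prod_type,
        Finset.mul_sum]
      refine Finset.sum_congr rfl fun q _ => ?_
      have hfst : ∀ n : Q, (((Subgroup.groupEquivQuotientProdSubgroup (s := Q)).symm (q, n) : K) : K ⧸ Q) = q :=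
        fun n => congrArg Prod.fst ((Subgroup.groupEquivQuotientProdSubgroup (s := Q)).apply_symm_apply (q, n))
      simp only [hfst, Finset.sum_const, Finset.card_univ, nsmul_eq_mul, ← Nat.card_eq_fintype_card]
    simp only [hA, sum_cosetAvg] at h2
    refine mul_left_cancel₀ hQ0 (h2.symm.trans ?_)
    have h3 := classInner_irrCharacter χ χ'
    rw [classInner, inv_mul_eq_iff_eq_mul₀ (Nat.cast_ne_zero.2 Nat.card_pos.ne'),
      ← Subgroup.card_mul_index Q] at h3
    refine Eq.trans (by simp only [hF, Pi.mul_apply]) (h3.trans ?_)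
    split_ifs <;> simp
  have hC : ∑ d, A (QuotientGroup.map (Q.comap ι) Q ι le_rfl d) =
      (((Q.comap ι).index * ∑ β : IrrCharacter C,
        mult ι (χ : K → ℂ) (β : C → ℂ) * mult ι (χ' : K → ℂ) (β : C → ℂ) : ℕ) : ℂ) := by
    have hQC0 : (Nat.card (Q.comap ι) : ℂ) ≠ 0 := Nat.cast_ne_zero.2 Nat.card_pos.ne'
    have h2 : ∑ c : C, A (QuotientGroup.map (Q.comap ι) Q ι le_rfl (c : C ⧸ Q.comap ι)) =
        (Nat.card (Q.comap ι) : ℂ) * ∑ d, A (QuotientGroup.map (Q.comap ι) Q ι le_rfl d) := by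
      rw [← (Subgroup.groupEquivQuotientProdSubgroup (s := Q.comap ι)).symm.sum_comp,
        Fintype.sum_prod_type, Finset.mul_sum]
      refine Finset.sum_congr rfl fun d _ => ?_
      have hfst : ∀ n : Q.comap ι, (((Subgroup.groupEquivQuotientProdSubgroup (s := Q.comap ι)).symm (d, n) : C) : C ⧸ Q.comap ι) = d :=
        fun n => congrArg Prod.fst ((Subgroup.groupEquivQuotientProdSubgroup (s := Q.comap ι)).apply_symm_apply (d, n))
      simp only [hfst, Finset.sum_const, Finset.card_univ, nsmul_eq_mul, ← Nat.card_eq_fintype_card]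
    simp only [QuotientGroup.map_mk, hA] at h2
    have h4 : ∀ c : C, cosetAvg Q F (ι c) = cosetAvg (Q.comap ι) (fun d => F (ι d)) c := fun c => by
      simp only [cosetAvg, Nat.card_congr h.eQ.toEquiv, map_mul]
      congr 1
      exact (Fintype.sum_equiv h.eQ.toEquiv _ _ fun x => rfl).symm
    simp only [h4, sum_cosetAvg] at h2
    refine mul_left_cancel₀ hQC0 (h2.symm.trans ?_)
    have h3 : classInner (fun c => (χ : K → ℂ) (ι c)) (fun c => (χ' : K → ℂ) (ι c)) =
        ((∑ β : IrrCharacter C,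
          mult ι (χ : K → ℂ) (β : C → ℂ) * mult ι (χ' : K → ℂ) (β : C → ℂ) : ℕ) : ℂ) := by
      rw [res_eq_sum_mult ι (IsIrrCharacter.isCharacter χ'.2), classInner_sum_right]
      simp only [classInner_smul_right, classInner_eq_mult ι (IsIrrCharacter.isCharacter χ.2),
        Complex.conj_natCast]
      push_cast
      exact Finset.sum_congr rfl fun β _ => mul_comm _ _
    rw [classInner, inv_mul_eq_iff_eq_mul₀ (Nat.cast_ne_zero.2 Nat.card_pos.ne'),
      ← Subgroup.card_mul_index (Q.comap ι)] at h3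
    refine Eq.trans (by simp only [hF, Pi.mul_apply]) (h3.trans ?_)
    push_cast
    ring
  rw [hK, hC] at h1
  -- only the invariant constituents count
  letI := irrAction h.actC
  have hcomp : ∀ (ψ : IrrCharacter K), CfsgLib.CharDegreesTheory.IsInvariant φ (ψ : K → ℂ) → ∀ (s : S) (β : IrrCharacter C),
      mult ι (ψ : K → ℂ) ((s • β : IrrCharacter C) : C → ℂ) = mult ι (ψ : K → ℂ) (β : C → ℂ) := by
    intro ψ hψ s β
    have h5 := mult_comp_equiv ι ι (φ s⁻¹) (h.actC s⁻¹) (fun c => h.map_actC s⁻¹ c)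
      (ψ : K → ℂ) (β : C → ℂ)
    rw [show (fun g => (ψ : K → ℂ) (φ s⁻¹ g)) = (ψ : K → ℂ) from funext (hψ s⁻¹)] at h5
    exact h5
  let f : IrrCharacter C → ℂ := fun β =>
    ((mult ι (χ : K → ℂ) (β : C → ℂ) * mult ι (χ' : K → ℂ) (β : C → ℂ) : ℕ) : ℂ)
  have h2 := intCong_sum_fixedPoints (X := IrrCharacter C) h.isPGroup f
    (fun β => isIntegral_natCast_complex _)
    (fun s β => by simp only [f, hcomp χ hχ, hcomp χ' hχ'])
  have hfil : (Finset.univ.filter fun β : IrrCharacter C => β ∈ MulAction.fixedPoints S (IrrCharacter C)) =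
      Finset.univ.filter fun β : IrrCharacter C => CfsgLib.CharDegreesTheory.IsInvariant h.actC (β : C → ℂ) :=
    Finset.filter_congr fun β _ => mem_fixedPoints_irrAction h.actC β
  rw [hfil] at h2
  have h3 := h2.mul_left (isIntegral_natCast_complex (Q.comap ι).index)
  simp only [f, ← Nat.cast_sum, ← Nat.cast_mul] at h3
  exact ((h3.symm.trans h1.symm).modEq hp.out.ne_zero)

/-- Some invariant constituent has multiplicity prime to `p`. -/
theorem exists_of_invariant {χ : IrrCharacter K} (hχ : CfsgLib.CharDegreesTheory.IsInvariant φ (χ : K → ℂ)) :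
    ∃ β : IrrCharacter C, CfsgLib.CharDegreesTheory.IsInvariant h.actC (β : C → ℂ) ∧ ¬ p ∣ mult ι (χ : K → ℂ) (β : C → ℂ) := by
  classical
  haveI := Fintype.ofFinite (IrrCharacter C)
  by_contra hno
  push Not at hno
  have h1 := h.sum_mult_modEq hχ hχ
  rw [if_pos rfl] at h1
  exact h.not_dvd ((h1.dvd_iff dvd_rfl).mp (dvd_mul_of_dvd_right
    (Finset.dvd_sum fun β hβ => dvd_mul_of_dvd_left (hno β (Finset.mem_filter.1 hβ).2) _) _))

/-- Distinct invariant characters have distinct correspondents. -/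
theorem injective {χ χ' : IrrCharacter K} (hχ : CfsgLib.CharDegreesTheory.IsInvariant φ (χ : K → ℂ))
    (hχ' : CfsgLib.CharDegreesTheory.IsInvariant φ (χ' : K → ℂ)) {β : IrrCharacter C} (hβ : CfsgLib.CharDegreesTheory.IsInvariant h.actC (β : C → ℂ))
    (hm : ¬ p ∣ mult ι (χ : K → ℂ) (β : C → ℂ)) (hm' : ¬ p ∣ mult ι (χ' : K → ℂ) (β : C → ℂ)) :
    χ = χ' := by
  classical
  haveI := Fintype.ofFinite (IrrCharacter C)
  by_contra hne
  have h1 := h.sum_mult_modEq hχ hχ'
  rw [if_neg hne, ← Finset.add_sum_erase _ _ (Finset.mem_filter.2 ⟨Finset.mem_univ β, hβ⟩)] at h1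
  have h2 : p ∣ ∑ γ ∈ (Finset.univ.filter fun γ : IrrCharacter C => CfsgLib.CharDegreesTheory.IsInvariant h.actC (γ : C → ℂ)).erase β,
      mult ι (χ : K → ℂ) (γ : C → ℂ) * mult ι (χ' : K → ℂ) (γ : C → ℂ) := by
    refine Finset.dvd_sum fun γ hγ => dvd_mul_of_dvd_left ?_ _
    by_contra hd
    exact (Finset.mem_erase.mp hγ).1
      (h.unique hχ (Finset.mem_filter.1 (Finset.mem_erase.mp hγ).2).2 hβ hd hm)
  rcases hp.out.dvd_mul.mp (Nat.modEq_zero_iff_dvd.mp h1) with hd | hd
  · exact h.not_dvd_index_comap hd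
  · exact (hp.out.dvd_mul.mp ((Nat.dvd_add_left h2).mp hd)).elim hm hm'

/-- The multiplicity is `±1` modulo `p`, and the degree of the correspondent is that of the
character up to the same sign. -/
theorem mult_degree {χ : IrrCharacter K} (hχ : CfsgLib.CharDegreesTheory.IsInvariant φ (χ : K → ℂ)) {β : IrrCharacter C}
    (hβ : CfsgLib.CharDegreesTheory.IsInvariant h.actC (β : C → ℂ)) (hm : ¬ p ∣ mult ι (χ : K → ℂ) (β : C → ℂ)) :
    ((mult ι (χ : K → ℂ) (β : C → ℂ) : ZMod p) = 1 ∨ (mult ι (χ : K → ℂ) (β : C → ℂ) : ZMod p) = -1) ∧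
      (mult ι (χ : K → ℂ) (β : C → ℂ) : ZMod p) * (charDegree (β : C → ℂ) : ZMod p) =
        (charDegree (χ : K → ℂ) : ZMod p) := by
  classical
  haveI := Fintype.ofFinite (IrrCharacter C)
  haveI := Fintype.ofFinite C
  set m := mult ι (χ : K → ℂ) (β : C → ℂ) with hmdef
  have hother : ∀ γ : IrrCharacter C, CfsgLib.CharDegreesTheory.IsInvariant h.actC (γ : C → ℂ) → γ ≠ β →
      (mult ι (χ : K → ℂ) (γ : C → ℂ) : ZMod p) = 0 := fun γ hγ hne =>
    (ZMod.natCast_eq_zero_iff _ _).2 (by_contra fun hd => hne (h.unique hχ hγ hβ hd hm))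
  constructor
  · have h1 := (ZMod.natCast_eq_natCast_iff _ _ _).2 (h.sum_mult_modEq hχ hχ)
    rw [if_pos rfl] at h1
    have hidx : ((Q.index : ℕ) : ZMod p) = ((Q.comap ι).index : ℕ) := by
      haveI := Fintype.ofFinite (K ⧸ Q)
      haveI := Fintype.ofFinite (C ⧸ Q.comap ι)
      have h2 := h.quot_setup.intCong_sum (fun _ => (1 : ℂ)) (fun _ => isIntegral_one) (fun _ _ => rfl)
      simp only [Finset.sum_const, Finset.card_univ, nsmul_eq_mul, mul_one,
        ← Nat.card_eq_fintype_card, ← Subgroup.index_eq_card] at h2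
      exact (ZMod.natCast_eq_natCast_iff _ _ _).2 (h2.modEq hp.out.ne_zero)
    push_cast at h1
    rw [hidx, Finset.sum_eq_single β (fun γ hγ hne => by
        rw [hother γ (Finset.mem_filter.1 hγ).2 hne, zero_mul])
      (fun hn => absurd (Finset.mem_filter.2 ⟨Finset.mem_univ β, hβ⟩) hn)] at h1
    have hne0 : (((Q.comap ι).index : ℕ) : ZMod p) ≠ 0 := fun h0 =>
      h.not_dvd_index_comap ((ZMod.natCast_eq_zero_iff _ _).1 h0)
    exact mul_self_eq_one_iff.1 (mul_left_cancel₀ hne0 (by rw [h1, mul_one]))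
  · letI := irrAction h.actC
    have hdeg : ∀ γ : IrrCharacter C, (γ : C → ℂ) 1 = (charDegree (γ : C → ℂ) : ℂ) := fun γ => by
      obtain ⟨d, -, hd⟩ := exists_degree_of_isIrr γ.2
      simp [charDegree, hd]
    have hχd : (χ : K → ℂ) 1 = (charDegree (χ : K → ℂ) : ℂ) := by
      obtain ⟨d, -, hd⟩ := exists_degree_of_isIrr χ.2
      simp [charDegree, hd]
    let f : IrrCharacter C → ℂ := fun γ =>
      ((mult ι (χ : K → ℂ) (γ : C → ℂ) * charDegree (γ : C → ℂ) : ℕ) : ℂ)
    have hsum : ((charDegree (χ : K → ℂ) : ℕ) : ℂ) = ∑ γ, f γ := by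
      have h5 := congrFun (res_eq_sum_mult ι (IsIrrCharacter.isCharacter χ.2)) 1
      simp only [map_one, Finset.sum_apply, Pi.smul_apply, smul_eq_mul, hdeg, hχd] at h5
      rw [h5]
      exact Finset.sum_congr rfl fun γ _ => by simp [f]
    have h2 := intCong_sum_fixedPoints (X := IrrCharacter C) h.isPGroup f
      (fun γ => isIntegral_natCast_complex _) (fun s γ => by
        have h5 := mult_comp_equiv ι ι (φ s⁻¹) (h.actC s⁻¹) (fun c => h.map_actC s⁻¹ c)
          (χ : K → ℂ) (γ : C → ℂ)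
        rw [show (fun g => (χ : K → ℂ) (φ s⁻¹ g)) = (χ : K → ℂ) from funext (hχ s⁻¹)] at h5
        have h6 : ((s • γ : IrrCharacter C) : C → ℂ) = fun c => (γ : C → ℂ) (h.actC s⁻¹ c) := rfl
        simp only [f, h6, h5, charDegree, map_one])
    have hfil : (Finset.univ.filter fun γ : IrrCharacter C => γ ∈ MulAction.fixedPoints S (IrrCharacter C)) =
        Finset.univ.filter fun γ : IrrCharacter C => CfsgLib.CharDegreesTheory.IsInvariant h.actC (γ : C → ℂ) :=
      Finset.filter_congr fun γ _ => mem_fixedPoints_irrAction h.actC γ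
    rw [hfil, ← hsum] at h2
    simp only [f, ← Nat.cast_sum] at h2
    have h3 := (ZMod.natCast_eq_natCast_iff _ _ _).2 (h2.modEq hp.out.ne_zero)
    push_cast at h3
    rw [h3, Finset.sum_eq_single β (fun γ hγ hne => by
        rw [hother γ (Finset.mem_filter.1 hγ).2 hne, zero_mul])
      (fun hn => absurd (Finset.mem_filter.2 ⟨Finset.mem_univ β, hβ⟩) hn)]

end RelSetup

end CfsgLib.Jordan
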